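/-
Project O8 (helper41): groups whose element orders are at most 8 (S3432).
Part A: the basic facts, the local definitions and the statements of the local steps.
The proofs of the steps are described in the jobs O8-* of the team database.
-/
import Cfsg.Agent.Char.Burnside
import Cfsg.Agent.Even.CGT0
import Cfsg.Agent.Even.NGrp.Defs

set_option autoImplicit false
set_option linter.unusedVariables false

open Cfsg Subgroup CL.Grp CL.Even CL.Loc CL.NGrp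
open scoped commutatorElement

namespace CL.O8

universe u

/-- all elements have order at most 8 -/
def Ord8 (G : Type*) [Group G] : Prop := ∀ g : G, orderOf g ≤ 8

section Basic

variable {G H : Type*} [Group G] [Group H]

/-- the fixed points of `x` in `V` -/
abbrev fx (V : Subgroup G) (x : G) : Subgroup G := V ⊓ centralizer {x}

/-- the index `|V : C_V(x)|` -/
noncomputable abbrev ix (V : Subgroup G) (x : G) : ℕ := (centralizer {x}).relIndex V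

theorem mem_fx {V : Subgroup G} {x v : G} : v ∈ fx V x ↔ v ∈ V ∧ Commute v x := by
  simp [mem_centralizer_singleton_iff, commute_iff_eq]

theorem ix_mul_card (V : Subgroup G) (x : G) : ix V x * Nat.card (fx V x) = Nat.card V := by
  have h := ((centralizer {x} : Subgroup G).subgroupOf V).index_mul_card
  rwa [← inf_subgroupOf_left, Nat.card_congr (subgroupOfEquivOfLe (inf_le_left : fx V x ≤ V)).toEquiv,
    inf_subgroupOf_left] at h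

theorem Ord8.of_inj (h : Ord8 G) (f : H →* G) (hf : Function.Injective f) : Ord8 H := fun g =>
  orderOf_injective f hf g ▸ h _

theorem Ord8.sub (h : Ord8 G) (K : Subgroup G) : Ord8 K := h.of_inj K.subtype K.subtype_injective

variable [Finite G]

theorem card_le_ix2 {V : Subgroup G} {a b : G} (h : fx V a ⊓ fx V b = ⊥) : Nat.card V ≤ ix V a * ix V b := by
  have h1 : (centralizer {a} ⊓ centralizer {b} : Subgroup G).relIndex V = Nat.card V := by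
    rw [← inf_relIndex_left, inf_inf_distrib_left, h, relIndex_bot_left]
  exact h1 ▸ relIndex_inf_le

theorem card_le_ix3 {V : Subgroup G} {a b c : G} (h : fx V a ⊓ fx V b ⊓ fx V c = ⊥) :
    Nat.card V ≤ ix V a * ix V b * ix V c := by
  have h1 : (centralizer {a} ⊓ centralizer {b} ⊓ centralizer {c} : Subgroup G).relIndex V = Nat.card V := by
    rw [← inf_relIndex_left, inf_inf_distrib_left V (_ ⊓ _), inf_inf_distrib_left V (centralizer {a}), h,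
      relIndex_bot_left]
  exact h1 ▸ relIndex_inf_le.trans (Nat.mul_le_mul_right _ relIndex_inf_le)

theorem Ord8.of_surj (h : Ord8 G) (f : G →* H) (hf : Function.Surjective f) : Ord8 H := fun g => by
  obtain ⟨x, rfl⟩ := hf g
  exact (Nat.le_of_dvd (orderOf_pos x) (orderOf_map_dvd f x)).trans (h x)

theorem Ord8.quot (h : Ord8 G) (N : Subgroup G) [N.Normal] : Ord8 (G ⧸ N) :=
  h.of_surj _ (QuotientGroup.mk'_surjective N)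

namespace Ord8

variable (h : Ord8 G)
include h

theorem primes {p : ℕ} (hp : p.Prime) (hd : p ∣ Nat.card G) : p = 2 ∨ p = 3 ∨ p = 5 ∨ p = 7 := by
  have := Fact.mk hp
  obtain ⟨x, hx⟩ := exists_prime_orderOf_dvd_card' p hd
  have h1 := hx ▸ h x
  interval_cases p <;> simp_all (config := {decide := true})

theorem not_dvd {p : ℕ} (hp : p.Prime) (h7 : 8 ≤ p) : ¬ p ∣ Nat.card G := fun d => by
  have := h.primes hp d
  omega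

theorem mul_le {x y : G} (hc : Commute x y) (hco : (orderOf x).Coprime (orderOf y)) :
    orderOf x * orderOf y ≤ 8 :=
  hc.orderOf_mul_eq_mul_orderOf_of_coprime hco ▸ h _

/-- an element of order 5 or 7 centralises no nontrivial element of coprime order -/
theorem fpf {x y : G} (hx : orderOf x = 5 ∨ orderOf x = 7) (hc : Commute x y)
    (hy : (orderOf x).Coprime (orderOf y)) : y = 1 := by
  have h1 := h.mul_le hc hy
  have h2 := orderOf_pos y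
  refine orderOf_eq_one_iff.1 ?_
  rcases hx with e | e <;> rw [e] at h1 <;> omega

theorem fpf_pow {x y : G} (hx : orderOf x = 5 ∨ orderOf x = 7) (hc : Commute x y) {r k : ℕ} (hr : r = 2 ∨ r = 3)
    (hy : y ^ r ^ k = 1) : y = 1 := by
  refine h.fpf hx hc (Nat.Coprime.coprime_dvd_right (orderOf_dvd_of_pow_eq_one hy) (Nat.Coprime.pow_right _ ?_))
  rcases hx with e | e <;> rcases hr with rfl | rfl <;> rw [e] <;> decide

theorem fpf2 {x r : G} (hx : orderOf x = 5 ∨ orderOf x = 7) {R : Subgroup G} (hR : IsPGroup 2 R) (hr : r ∈ R)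
    (hc : Commute x r) : r = 1 :=
  let ⟨_, hk⟩ := hR ⟨r, hr⟩
  h.fpf_pow hx hc (.inl rfl) (congrArg Subtype.val hk)

theorem fx_eq_bot {x : G} (hx : orderOf x = 5 ∨ orderOf x = 7) {R : Subgroup G} (hR : IsPGroup 2 R) : fx R x = ⊥ :=
  (eq_bot_iff_forall _).2 fun r hr => h.fpf2 hx hR (mem_fx.1 hr).1 (mem_fx.1 hr).2.symm

/-- a 2-element commuting with an element of order 3 has square one -/
theorem sq_pow {y r : G} (hy : orderOf y = 3) (hc : Commute y r) {k : ℕ} (hr : r ^ 2 ^ k = 1) : r * r = 1 := by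
  have h0 := orderOf_dvd_of_pow_eq_one hr
  have h1 := h.mul_le hc (hy ▸ Nat.Coprime.coprime_dvd_right h0 (Nat.Coprime.pow_right _ (by decide)))
  have h2 := orderOf_pos r
  rw [hy] at h1
  rw [← sq, ← orderOf_dvd_iff_pow_eq_one]
  have h3 : orderOf r ≤ 2 := by omega
  interval_cases orderOf r <;> decide

theorem sq {y r : G} (hy : orderOf y = 3) {R : Subgroup G} (hR : IsPGroup 2 R) (hr : r ∈ R) (hc : Commute r y) :
    r * r = 1 :=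
  let ⟨_, hk⟩ := hR ⟨r, hr⟩
  h.sq_pow hy hc.symm (congrArg Subtype.val hk)

/-- the fixed points of an element of order 3 in a 2-subgroup commute -/
theorem comm {y r s : G} (hy : orderOf y = 3) {R : Subgroup G} (hR : IsPGroup 2 R) (hr : r ∈ R) (hs : s ∈ R)
    (hc : Commute r y) (hd : Commute s y) : Commute r s := by
  have h1 := h.sq hy hR hr hc
  have h2 := h.sq hy hR hs hd
  have h3 := h.sq hy hR (R.mul_mem hr hs) (hc.mul_left hd)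
  calc r * s = (r * s)⁻¹ := (inv_eq_of_mul_eq_one_right h3).symm
    _ = s * r := by rw [mul_inv_rev, inv_eq_of_mul_eq_one_right h1, inv_eq_of_mul_eq_one_right h2]

theorem fx_elem {y : G} (hy : orderOf y = 3) {R : Subgroup G} (hR : IsPGroup 2 R) : IsElementaryAbelian 2 (fx R y) :=
  elem_iff.2 ⟨fun a ha b hb => (h.comm hy hR (mem_fx.1 hb).1 (mem_fx.1 ha).1 (mem_fx.1 hb).2 (mem_fx.1 ha).2).eq,
    fun a ha => by rw [pow_two]; exact h.sq hy hR (mem_fx.1 ha).1 (mem_fx.1 ha).2⟩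

theorem pow_of_pow {p k e : ℕ} {g : G} (hg : g ^ p ^ k = 1)
    (he : ∀ n ≤ 8, n ∣ e ∨ ∃ r ≤ 8, r ∣ n ∧ r ≠ 1 ∧ r.Coprime p) : g ^ e = 1 := by
  rcases he _ (h g) with h1 | ⟨r, -, h1, h2, h3⟩
  · exact orderOf_dvd_iff_pow_eq_one.1 h1
  · exact absurd (Nat.eq_one_of_dvd_coprimes (h3.pow_right k) dvd_rfl
      (h1.trans (orderOf_dvd_of_pow_eq_one hg))) h2

theorem two_el {k : ℕ} {g : G} (hg : g ^ 2 ^ k = 1) : g ^ 8 = 1 := h.pow_of_pow hg (by decide)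

theorem three_el {k : ℕ} {g : G} (hg : g ^ 3 ^ k = 1) : g ^ 3 = 1 := h.pow_of_pow hg (by decide)

theorem five_el {k : ℕ} {g : G} (hg : g ^ 5 ^ k = 1) : g ^ 5 = 1 := h.pow_of_pow hg (by decide)

theorem seven_el {k : ℕ} {g : G} (hg : g ^ 7 ^ k = 1) : g ^ 7 = 1 := h.pow_of_pow hg (by decide)

theorem three_grp {P : Subgroup G} (hP : IsPGroup 3 P) {g : G} (hg : g ∈ P) : g ^ 3 = 1 :=
  let ⟨_, hk⟩ := hP ⟨g, hg⟩
  h.three_el (congrArg Subtype.val hk)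

theorem eq_of_dvd {x : G} {p : ℕ} (hp : 5 ≤ p) (hx : p ∣ orderOf x) : orderOf x = p := by
  have h1 := h x
  have h2 := orderOf_pos x
  obtain ⟨k, hk⟩ := hx
  obtain _ | _ | k := k
  · omega
  · omega
  · nlinarith

theorem solv_of_not_dvd (h5 : ¬ 5 ∣ Nat.card G) (h7 : ¬ 7 ∣ Nat.card G) : Group.IsSolvable G :=
  CL.Char.isSolvable_of_two_primes Nat.prime_two Nat.prime_three fun r hr hd => by
    rcases h.primes hr hd with h1 | h1 | rfl | rfl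
    exacts [.inl h1, .inr h1, absurd hd h5, absurd hd h7]

theorem exists_57 {L : Subgroup G} (hs : ¬ Group.IsSolvable L) : ∃ x ∈ L, orderOf x = 5 ∨ orderOf x = 7 := by
  have := Fact.mk Nat.prime_five
  have := Fact.mk Nat.prime_seven
  by_cases h5 : 5 ∣ Nat.card L
  · obtain ⟨x, hx⟩ := exists_prime_orderOf_dvd_card' 5 h5
    exact ⟨x, x.2, .inl (by rw [orderOf_coe, hx])⟩
  by_cases h7 : 7 ∣ Nat.card L
  · obtain ⟨x, hx⟩ := exists_prime_orderOf_dvd_card' 7 h7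
    exact ⟨x, x.2, .inr (by rw [orderOf_coe, hx])⟩
  exact absurd ((h.sub L).solv_of_not_dvd h5 h7) hs

/-- a subgroup centralising an involution is solvable -/
theorem solv_of_cent {L : Subgroup G} {z : G} (h1 : z * z = 1) (h2 : z ≠ 1) (hL : ∀ g ∈ L, Commute g z) :
    Group.IsSolvable L := by
  by_contra hs
  obtain ⟨x, hx, ho⟩ := h.exists_57 hs
  exact h2 (h.fpf_pow ho (hL x hx) (.inl rfl) (k := 1) (by rw [pow_one, pow_two, h1]))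

end Ord8

end Basic

section Defs

variable {G : Type*} [Group G]

/-- `⟨e, f⟩` is elementary abelian of order 9 -/
structure Nine (e f : G) : Prop where
  oe : orderOf e = 3
  of : orderOf f = 3
  comm : Commute e f
  nm : f ∉ zpowers e

/-- `P = T⟨y⟩` has the Sylow subgroup `T`, `O₂(P) = U` and `P / U ≅ S₃` -/
structure Par (T U : Subgroup G) (y : G) : Prop where
  two : IsPGroup 2 T
  le : U ≤ T
  card : Nat.card T = 2 * Nat.card U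
  ord : orderOf y = 3
  nU : y ∈ 𝒩(U)
  inv : ∀ t ∈ T, t ∉ U → t * y * t⁻¹ * y ∈ U

/-- the consequences of `Par` -/
structure ParF (T U : Subgroup G) (y : G) : Prop where
  nT : T ≤ 𝒩(U)
  syl : IsSylowIn 2 T (T ⊔ zpowers y)
  core : pCoreOf 2 (T ⊔ zpowers y) = U
  cardP : Nat.card ↥(T ⊔ zpowers y) = 3 * Nat.card T
  nn : y ∉ 𝒩(T)
  max : ∀ Y, T ≤ Y → Y ≤ T ⊔ zpowers y → Y = T ∨ Y = T ⊔ zpowers y
  mem : ∀ g ∈ T ⊔ zpowers y, ∃ t ∈ T, g = t ∨ g = y * t ∨ g = y⁻¹ * t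
  s3 : Nonempty (↥(T ⊔ zpowers y) ⧸ pCore 2 ↥(T ⊔ zpowers y) ≃* Equiv.Perm (Fin 3))
  gen : ∀ X : Subgroup G, T ≤ 𝒞(X) → y ∈ 𝒩(X) → y ∈ 𝒞(X)
  three : ∀ e ∈ T ⊔ zpowers y, orderOf e = 3 → ∃ u ∈ U, u * e * u⁻¹ = y ∨ u * e * u⁻¹ = y⁻¹
  nine : ∀ e ∈ T ⊔ zpowers y, ∀ f ∈ T ⊔ zpowers y, ¬ Nine e f
  solv : Group.IsSolvable ↥(T ⊔ zpowers y)
  ex : ∃ t ∈ T, t ∉ U ∧ t * y * t⁻¹ = y⁻¹
  mulm : ∀ s ∈ T, ∀ t ∈ T, s ∉ U → t ∉ U → s * t ∈ U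

/-- `R = O₂(H)`, `O / R` is a normal 3-subgroup of `H / R` containing its centralizer -/
structure Fit3 (H R O : Subgroup G) : Prop where
  two : IsPGroup 2 R
  RO : R ≤ O
  OH : O ≤ H
  nR : H ≤ 𝒩(R)
  nO : H ≤ 𝒩(O)
  chr : H ⊓ 𝒞(R) ≤ R
  cube : ∀ o ∈ O, o ^ 3 ∈ R
  self : ∀ h ∈ H, (∀ o ∈ O, ⁅h, o⁆ ∈ R) → h ∈ O

/-- `π` identifies `X` with `L / Q` -/
structure Quo {X : Type*} [Group X] (L Q : Subgroup G) (π : L →* X) : Prop where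
  surj : Function.Surjective π
  ker : ∀ m : L, π m = 1 ↔ (m : G) ∈ Q

/-- `Q` is a nontrivial normal 2-subgroup of `L` -/
structure Cov (L Q : Subgroup G) : Prop where
  two : IsPGroup 2 Q
  ne : Q ≠ ⊥
  le : Q ≤ L
  nQ : L ≤ 𝒩(Q)

/-- `L` is nonsolvable of characteristic 2 with `O₂(L) = Q` -/
structure Lc0 (L Q : Subgroup G) : Prop extends Cov L Q where
  chr : L ⊓ 𝒞(Q) ≤ Q
  core : pCoreOf 2 L = Q
  ns : ¬ Group.IsSolvable L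

theorem Quo.eq_iff {X : Type*} [Group X] {L Q : Subgroup G} {π : L →* X} (h : Quo L Q π) {a b : L} :
    π a = π b ↔ (a : G) * (b : G)⁻¹ ∈ Q := by
  rw [← mul_inv_eq_one, ← map_inv, ← map_mul, h.ker]; rfl

/-- elements of odd order lift to elements of the same order -/
theorem Quo.lift_odd [Finite G] {X : Type*} [Group X] {L Q : Subgroup G} {π : L →* X} (h : Quo L Q π)
    (hQ : IsPGroup 2 Q) {x : X} (hx : Odd (orderOf x)) : ∃ m : L, π m = x ∧ orderOf (m : G) = orderOf x := by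
  obtain ⟨m, rfl⟩ := h.surj x
  obtain ⟨k, hk⟩ := hQ ⟨_, (h.ker (m ^ orderOf (π m))).1 (by rw [map_pow, pow_orderOf_eq_one])⟩
  have h1 : (m ^ orderOf (π m)) ^ 2 ^ k = 1 := Subtype.ext (by simpa using congrArg Subtype.val hk)
  have hc : (2 ^ k).Coprime (orderOf (π m)) := Nat.Coprime.pow_left _ (Nat.coprime_two_left.2 hx)
  obtain ⟨j, hj⟩ := exists_pow_eq_self_of_coprime hc
  have h2 : π ((m ^ 2 ^ k) ^ j) = π m := by rw [map_pow, map_pow, hj]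
  refine ⟨_, h2, ?_⟩
  rw [orderOf_coe]
  refine Nat.dvd_antisymm (orderOf_dvd_of_pow_eq_one ?_) (h2 ▸ orderOf_map_dvd π _)
  rw [← pow_mul, ← pow_mul, show 2 ^ k * (j * orderOf (π m)) = orderOf (π m) * 2 ^ k * j by ring, pow_mul, pow_mul, h1,
    one_pow]

end Defs

section Models

/-- the simple groups with `Ord8` -/
def Small (K : Type*) [Group K] : Prop :=
  (∃ n, (n = 5 ∨ n = 6 ∨ n = 7) ∧ Nonempty (K ≃* alternatingGroup (Fin n))) ∨ IsL2 K 7 ∨ IsL3 K 4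

/-- the induction hypothesis -/
def IH (c : ℕ) : Prop :=
  ∀ (K : Type u) [Group K] [Finite K] [IsSimpleGroup K], ¬ Group.IsSolvable K → Ord8 K → Nat.card K ≤ c → Small K

theorem IH.mono {c d : ℕ} (h : IH.{u} c) (hd : d ≤ c) : IH.{u} d := fun K _ _ _ h1 h2 h3 => h K h1 h2 (h3.trans hd)

variable {X : Type u} [Group X]

/-- the products of `φ` over the orbits of the elements of order `p` are trivial -/
def Nrm {A : Type*} [CommGroup A] (p : ℕ) (φ : X → A) : Prop :=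
  ∀ g x : X, orderOf x = p → ∏ i ∈ Finset.range p, φ (x ^ i * g) = 1

/-- the cosets `P, xP, x³P` form a line -/
def Ln (P : Subgroup X) (d x : X) : Prop :=
  ∃ h ∈ P, ∃ e, (e = d ∨ e = d⁻¹) ∧ (h * e)⁻¹ * x ∈ P ∧ (h * e * e)⁻¹ * x ^ 3 ∈ P

/-- the certificate for the step `PW` -/
def PWc (a b c d : X) : Prop :=
  ∃ x u : X, u ∈ closure {a, b} ∧ orderOf x = 7 ∧ orderOf (x * u) = 7 ∧ Ln (closure {a, b, c}) d x ∧
    Ln (closure {a, b, c}) d (x * u) ∧ (x ^ 3)⁻¹ * (x * u) ^ 3 ∈ closure {a, b, c} ∧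
    (x ^ 3)⁻¹ * (x * u) ^ 3 ∉ closure {a, b}

/-- the facts about `A₆` (`p = 5`) and `L₃(2)` (`p = 7`): `⟨a, b⟩` is a dihedral Sylow subgroup with centre `z` -/
structure DX (p : ℕ) (z a b c d : X) : Prop where
  hp : p = 5 ∨ p = 7
  z1 : z ≠ 1
  zz : z * z = 1
  aa : a * a = 1
  bb : b * b = 1
  ab : a * b * (a * b) = z
  ba : b * a * (b * a) = z
  za : a * z = z * a
  zb : b * z = z * b
  cz : c * z * c⁻¹ = a
  ca : c * a * c⁻¹ = a * z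
  dz : d * z * d⁻¹ = b
  db : d * b * d⁻¹ = b * z
  c3 : orderOf c = 3
  d3 : orderOf d = 3
  bc : b * c * b⁻¹ = c⁻¹
  ad : a * d * a⁻¹ = d⁻¹
  syl : IsSylowIn 2 (closure {a, b}) ⊤
  ovr : ∀ Y : Subgroup X, closure {a, b} ≤ Y →
    Y = closure {a, b} ∨ Y = closure {a, b, c} ∨ Y = closure {a, b, d} ∨ Y = ⊤
  top : closure {a, b, c, d} = ⊤
  g5 : p = 5 → ∃ g, orderOf (z * (g * z * g⁻¹)) = 5
  g7 : p = 7 → ∃ g h, orderOf (z * (g * z * g⁻¹) * (h * z * h⁻¹)) = 7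
  e5 : p = 5 → (∃ e, Nine c e) ∧ ∃ e, Nine d e
  f7 : p = 7 → (∃ x, orderOf x = 7 ∧ (c * x * c⁻¹ = x ^ 2 ∨ c * x * c⁻¹ = x ^ 4)) ∧
    ∃ x, orderOf x = 7 ∧ (d * x * d⁻¹ = x ^ 2 ∨ d * x * d⁻¹ = x ^ 4)
  hw : ∀ (A : Type u) [CommGroup A] (φ : X → A), (∀ v : A, v * v = 1) → (∀ g, φ (g * a) = φ g) →
    (∀ g, φ (g * b) = φ g) → (∀ g, φ g * φ (g * c) * φ (g * c * c) = 1) → (∀ g, φ g * φ (g * d) * φ (g * d * d) = 1) →
    Nrm p φ → φ 1 = 1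
  pw : p = 7 → PWc a b c d ∧ PWc a b d c

variable (X)

/-- a subgroup `A₄` -/
def Q4 : Prop := ∃ a b y : X, a * a = 1 ∧ b * b = 1 ∧ a * b = b * a ∧ a ≠ 1 ∧ y * a * y⁻¹ = b ∧
  y * b * y⁻¹ = a * b ∧ orderOf y = 3

/-- a subgroup `D₁₀` -/
def D5 : Prop := ∃ x t : X, orderOf x = 5 ∧ t * x * t⁻¹ = x⁻¹

/-- a subgroup `5 : 4` -/
def F5 : Prop := ∃ x t : X, orderOf x = 5 ∧ t * x * t⁻¹ = x ^ 2

/-- a subgroup `7 : 3` -/
def F7 : Prop := ∃ x t : X, orderOf x = 7 ∧ t * x * t⁻¹ = x ^ 2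

/-- the configuration in `A₇` -/
def C7 : Prop := ∃ e f u w x g h : X, Nine e f ∧ u * u = 1 ∧ Commute u e ∧ orderOf w = 5 ∧ u * w * u⁻¹ = w⁻¹ ∧
  g * e * g⁻¹ = f ∧ h * (e * f) * h⁻¹ = e * f⁻¹ ∧ orderOf x = 7 ∧
  (e * f * x * (e * f)⁻¹ = x ^ 2 ∨ e * f * x * (e * f)⁻¹ = x ^ 4)

/-- the configuration in `L₃(4)` -/
def C34 : Prop := ∃ e f x g h k : X, Nine e f ∧ orderOf x = 7 ∧ (e * x * e⁻¹ = x ^ 2 ∨ e * x * e⁻¹ = x ^ 4) ∧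
  g * e * g⁻¹ = f ∧ h * e * h⁻¹ = e * f ∧ k * e * k⁻¹ = e * f⁻¹ ∧
  ∀ (A : Type u) [CommGroup A] (φ : X → A), (∀ v : A, v * v = 1) → (∀ m, φ (m * e) = φ m) → (∀ m, φ (m * f) = φ m) →
    Nrm 5 φ → φ 1 = 1

variable {X}

/-- the configuration of `S₅` around an element of order 3 -/
def K5c (y : X) : Prop := ∃ τ σ g x : X, τ * τ = 1 ∧ σ * σ = 1 ∧ Commute τ y ∧ Commute σ τ ∧ σ * y * σ⁻¹ = y⁻¹ ∧
  g * τ * g⁻¹ = σ ∧ orderOf x = 5 ∧ σ * τ * x * (σ * τ)⁻¹ = x⁻¹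

variable (X)

/-- the configurations in `A₆ . 2` -/
def C62 : Prop := (∃ s x : X, orderOf s = 8 ∧ orderOf x = 5 ∧ s ^ 4 * x * (s ^ 4)⁻¹ = x⁻¹) ∨
  ∃ e f : X, Nine e f ∧ K5c e ∧ K5c f ∧ K5c (e * f) ∧ K5c (e * f⁻¹)

end Models

section Types

variable {G : Type u} [Group G]

/-- `L / Q ≅ A₅` -/
def TyA (L Q : Subgroup G) : Prop := ∃ π : L →* alternatingGroup (Fin 5), Quo L Q π

/-- `L / Q ≅ S₅` -/
def TyS (L Q : Subgroup G) : Prop := ∃ π : L →* Equiv.Perm (Fin 5), Quo L Q π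

/-- `L / Q ≅ A₆` or `L₃(2)` -/
def TyD (p : ℕ) (L Q : Subgroup G) : Prop :=
  ∃ (X : Type u) (_ : Group X) (π : L →* X) (z a b c d : X), Quo L Q π ∧ DX p z a b c d

end Types

/-! ### The local steps -/

def ParThm : Prop := ∀ (G : Type u) [Group G] [Finite G] (T U : Subgroup G) (y : G), Par T U y → ParF T U y

def ClThm : Prop := ∀ (G : Type u) [Group G] [Finite G], Ord8 G → ∀ (R : Subgroup G) (y τ : G), IsPGroup 2 R →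
  orderOf y = 3 → y ∈ 𝒩(R) → τ ∈ 𝒩(R) → τ * τ ∈ R → ⁅τ, y⁆ ∈ R →
  ∃ r ∈ R, Commute (τ * r) y ∧ τ * r * (τ * r) = 1 ∧ ∀ w ∈ R, Commute w y → Commute w (τ * r)

def L9Thm : Prop := ∀ (G : Type u) [Group G] [Finite G], Ord8 G → ∀ (R : Subgroup G) (e f : G), IsPGroup 2 R →
  orderOf e = 3 → e ∈ 𝒩(R) → f ∈ 𝒩(R) → f ^ 3 ∈ R → ⁅f, e⁆ ∈ R → f ∉ zpowers e ⊔ R → ∃ r ∈ R, Nine e (f * r)

def E9Thm : Prop := ∀ (G : Type u) [Group G] [Finite G], Ord8 G → ∀ (R : Subgroup G) (e f : G), IsPGroup 2 R →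
  Nine e f → e ∈ 𝒩(R) → f ∈ 𝒩(R) →
  R ≤ fx R e ⊔ fx R f ⊔ fx R (e * f) ⊔ fx R (e * f⁻¹) ∧
  (∀ d ∈ R, Commute d e → Commute d f → d ∈ 𝒞(R)) ∧
  ((∀ v ∈ 𝛀[2] R, Commute v e ∧ Commute v f) → e ∈ 𝒞(R) ∧ f ∈ 𝒞(R)) ∧
  (∀ q ∈ 𝒩(R), q * q ∈ R → ⁅q, e⁆ ∈ R → ⁅q, f⁆ ∈ R → ∃ r ∈ R, q * r ∈ 𝒞(R)) ∧
  (R ≤ 𝒞(R) → fx R e ⊓ fx R f = ⊥ →
    Nat.card R = Nat.card (fx R e) * Nat.card (fx R f) * Nat.card (fx R (e * f)) * Nat.card (fx R (e * f⁻¹)))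

def CyThm : Prop := ∀ (G : Type u) [Group G] [Finite G] (V : Subgroup G), IsElementaryAbelian 2 V →
  (∀ y τ : G, orderOf y = 3 → y ∈ 𝒩(V) → τ ∈ 𝒩(V) → τ * τ ∈ 𝒞(V) → ⁅τ, y⁆ ∈ 𝒞(V) →
    (∀ w ∈ V, Commute w y → Commute w τ) →
    (Nat.card V ≤ ix V τ ^ 2 → fx V y = ⊥) ∧
    ∀ σ ∈ 𝒩(V), σ * σ ∈ 𝒞(V) → ⁅σ, τ⁆ ∈ 𝒞(V) → σ * y * σ⁻¹ * y ∈ 𝒞(V) → Nat.card (fx V σ) = Nat.card (fx V τ) →
      Nat.card V ≤ ix V (σ * τ) ^ 2 → fx V y = ⊥) ∧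
  ∀ s ∈ 𝒩(V), s ^ 8 = 1 → (∀ v ∈ V, (s * v) ^ 8 = 1) → Nat.card V ≤ ix V (s ^ 4) ^ 2 → V = ⊥

def F73Thm : Prop := ∀ (G : Type u) [Group G] [Finite G], Ord8 G → ∀ (R D : Subgroup G) (x y : G), IsPGroup 2 R →
  IsPGroup 2 D → x ∈ 𝒩(R) → y ∈ 𝒩(R) → R ≤ 𝒩(D) → x ∈ 𝒩(D) → y ∈ 𝒩(D) → orderOf x = 7 → orderOf y = 3 →
  (y * x * y⁻¹ * (x ^ 2)⁻¹ ∈ R ∨ y * x * y⁻¹ * (x ^ 4)⁻¹ ∈ R) → Nat.card D = Nat.card (fx D y) ^ 3

def K76Thm : Prop := ∀ (G : Type u) [Group G] [Finite G], Ord8 G → ∀ (R : Subgroup G) (x g : G), IsPGroup 2 R →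
  R ≠ ⊥ → x ∈ 𝒩(R) → g ∈ 𝒩(R) → orderOf x = 7 →
  (g * x * g⁻¹ * (x ^ 3)⁻¹ ∈ R ∨ g * x * g⁻¹ * (x ^ 5)⁻¹ ∈ R) → False

def S5KThm : Prop := ∀ (G : Type u) [Group G] [Finite G], Ord8 G → ∀ (L Q : Subgroup G) (y τ σ g x : G),
  IsPGroup 2 Q → Q ≤ L → L ≤ 𝒩(Q) → y ∈ L → τ ∈ L → σ ∈ L → g ∈ L → x ∈ L → orderOf y = 3 → τ * τ ∈ Q → σ * σ ∈ Q →
  ⁅τ, y⁆ ∈ Q → ⁅σ, τ⁆ ∈ Q → σ * y * σ⁻¹ * y ∈ Q → g * τ * g⁻¹ * σ⁻¹ ∈ Q → orderOf x = 5 →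
  σ * τ * x * (σ * τ)⁻¹ * x ∈ Q → fx Q y = ⊥

def FSThm : Prop := ∀ (G : Type u) [Group G] [Finite G], Ord8 G → ∀ H : Subgroup G, Group.IsSolvable H →
  IsCharP 2 H → (∃ O, Fit3 H (pCoreOf 2 H) O) ∨
  ∃ x ∈ H, (orderOf x = 5 ∨ orderOf x = 7) ∧ H ≤ 𝒩(zpowers x ⊔ pCoreOf 2 H) ∧
    (∀ h ∈ H, ⁅h, x⁆ ∈ pCoreOf 2 H → h ∈ zpowers x ⊔ pCoreOf 2 H) ∧
    ¬ ∃ y ∈ H, ∃ q ∈ H, orderOf y = 3 ∧ q ∉ pCoreOf 2 H ∧ q * q ∈ pCoreOf 2 H

def LY1Thm : Prop := ∀ (G : Type u) [Group G] [Finite G], Ord8 G → ∀ (H R O : Subgroup G) (y q : G), Fit3 H R O →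
  y ∈ H → orderOf y = 3 → q ∈ H → q ∉ R → q * q ∈ R → ⁅q, y⁆ ∈ R →
  y ∈ O ∧ (∀ o ∈ O, ⁅o, y⁆ ∈ R) ∧ (∀ o ∈ O, ⁅q, o⁆ ∈ R → o ∈ zpowers y ⊔ R) ∧
    ∀ e ∈ O, Commute e y → orderOf e = 3 → ∀ d ∈ R, Commute d y → Commute d e

def LY2Thm : Prop := ∀ (G : Type u) [Group G] [Finite G], Ord8 G → ∀ (H R O U : Subgroup G) (y : G), Fit3 H R O →
  IsPGroup 2 U → R ≤ U → U ≤ H → U ≠ R → y ∈ H → orderOf y = 3 → y ∈ 𝒩(U) →
  Nat.card U = 2 * Nat.card R ∧ y ∈ O ∧ (∀ o ∈ O, ⁅o, y⁆ ∈ R) ∧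
    (∀ e ∈ O, Commute e y → orderOf e = 3 → ∀ d ∈ R, Commute d y → Commute d e) ∧
    (∀ d ∈ R, Commute d y → d ∈ 𝒞(U)) ∧
    ∃ q ∈ U, q ∉ R ∧ q * q = 1 ∧ Commute q y ∧ ∃ e ∈ O, Nine y e ∧ q * e * q⁻¹ * e ∈ R

def LAThm : Prop := ∀ (G : Type u) [Group G] [Finite G], Ord8 G → LC2 G → ∀ T : Subgroup G, IsSylowIn 2 T ⊤ → T ≠ ⊥ →
  (∀ e ∈ 𝒞(𝛀[2] T), ∀ f ∈ 𝒞(𝛀[2] T), ¬ Nine e f) ∧
  (𝒞(𝛀[2] T) ≤ 𝒩(T) ∨ ∃ U y, Par T U y ∧ T ⊔ zpowers y = 𝒞(𝛀[2] T))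

def SEThm : Prop := ∀ (G : Type u) [Group G] [Finite G], Ord8 G → LC2 G → ∀ (T U U' : Subgroup G) (y y' z : G),
  IsSylowIn 2 T ⊤ → Par T U y → Par T U' y' → y ∈ 𝒞(𝛀[2] T) → z ∈ 𝛀[2] T → z ≠ 1 → Commute z y' →
  y' ∉ T ⊔ zpowers y → U = U'

def FFAThm : Prop := ∀ (G : Type u) [Group G] [Finite G], Ord8 G → ∀ H R O A : Subgroup G, Fit3 H R O →
  H ⊓ 𝒞(𝛀[2] R) ≤ R → A ≤ H → IsElementaryAbelian 2 A → (𝒞(A)).relIndex (𝛀[2] R) ≤ R.relIndex A → R.relIndex A ≤ 2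

def FFBThm : Prop := ∀ (G : Type u) [Group G] [Finite G], Ord8 G → ∀ (H R O : Subgroup G) (a : G), Fit3 H R O →
  H ⊓ 𝒞(𝛀[2] R) ≤ R → a ∈ H → a ∉ R → a * a ∈ R → ix (𝛀[2] R) a ≤ 2 →
  ∃ y, orderOf y = 3 ∧ O = zpowers y ⊔ R

def FFSThm : Prop := ∀ (G : Type u) [Group G] [Finite G], Ord8 G → ∀ H T : Subgroup G, Group.IsSolvable H →
  IsCharP 2 H → IsSylowIn 2 T H → H ⊓ 𝒞(𝛀[2] (pCoreOf 2 H)) ≤ pCoreOf 2 H → ¬ 𝐉[2] T ≤ pCoreOf 2 H →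
  ∃ y, Par T (pCoreOf 2 H) y ∧ T ⊔ zpowers y = H

/-! ### Nonsolvable groups -/

def O57Thm : Prop := ∀ (X : Type u) [Group X] [Finite X], Ord8 X →
  (¬ Group.IsSolvable X → pCore 5 X = ⊥ ∧ pCore 7 X = ⊥) ∧ (70 ∣ Nat.card X → ¬ Group.IsSolvable X)

def NS0Thm : Prop := ∀ (G : Type u) [Group G] [Finite G], Ord8 G → ∀ (L Q : Subgroup G) (X : Type u) [Group X]
  (π : L →* X), Lc0 L Q → Quo L Q π → ∀ N : Subgroup X, N.Normal → Group.IsSolvable N → N = ⊥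

def ASThm : Prop := ∀ (X : Type u) [Group X] [Finite X], Ord8 X → Nontrivial X →
  (∀ N : Subgroup X, N.Normal → Group.IsSolvable N → N = ⊥) → IH.{u} (Nat.card X) →
  ∃ S : Subgroup X, S.Normal ∧ IsSimpleGroup S ∧ ¬ Group.IsSolvable S ∧ Small S ∧ 𝒞(S) = ⊥

def IXThm : Prop := ∀ (X : Type u) [Group X] [Finite X], Ord8 X → ∀ S : Subgroup X, S.Normal → 3 ∣ Nat.card S →
  ¬ 27 ∣ Nat.card S → ¬ 25 ∣ Nat.card S → ¬ 49 ∣ Nat.card S →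
  ¬ 5 ∣ S.index ∧ ¬ 7 ∣ S.index ∧ (D5 S → S.index = 1 ∨ S.index = 2) ∧ (F5 S → S.index = 1) ∧
    (F7 S → S.index = 1 ∨ S.index = 2 ∧ ∃ x g : X, orderOf x = 7 ∧ (g * x * g⁻¹ = x ^ 3 ∨ g * x * g⁻¹ = x ^ 5))

def KA7Thm : Prop := ∀ (G : Type u) [Group G] [Finite G], Ord8 G → ∀ (L Q : Subgroup G) (X : Type u) [Group X]
  (π : L →* X), Cov L Q → Quo L Q π → C7 X → False

def K34Thm : Prop := ∀ (G : Type u) [Group G] [Finite G], Ord8 G → ∀ (L Q : Subgroup G) (X : Type u) [Group X]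
  (π : L →* X), Cov L Q → Quo L Q π → C34 X → False

def K62Thm : Prop := ∀ (G : Type u) [Group G] [Finite G], Ord8 G → ∀ (L Q : Subgroup G) (X : Type u) [Group X]
  (π : L →* X), Cov L Q → Quo L Q π →
  (∀ y : L, orderOf (y : G) = 3 → K5c (π y) → fx Q y = ⊥) ∧ (C62 X → False)

def M62Thm : Prop := ∀ (X : Type u) [Group X] [Finite X], Ord8 X → ∀ S : Subgroup X, S.Normal → S.index = 2 →
  𝒞(S) = ⊥ → Nonempty (S ≃* alternatingGroup (Fin 6)) → C62 X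

def MAThm : Prop := ∀ (S : Type u) [Group S],
  (Nonempty (S ≃* alternatingGroup (Fin 5)) → Q4 S ∧ D5 S) ∧
  (Nonempty (S ≃* alternatingGroup (Fin 6)) → Q4 S ∧ D5 S) ∧
  (Nonempty (S ≃* alternatingGroup (Fin 7)) → Q4 S ∧ F5 S ∧ C7 S ∧ ∀ g : S, orderOf g ≠ 8)

def M6Thm : Prop := ∀ (S : Type u) [Group S], Nonempty (S ≃* alternatingGroup (Fin 6)) →
  ∃ z a b c d : S, DX 5 z a b c d

def M7Thm : Prop := ∀ (S : Type u) [Group S], IsL2 S 7 →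
  Nat.card S = 168 ∧ Q4 S ∧ F7 S ∧ ∃ z a b c d : S, DX 7 z a b c d

def M34Thm : Prop := ∀ (S : Type u) [Group S], IsL3 S 4 →
  Nat.card S = 20160 ∧ Q4 S ∧ F7 S ∧ C34 S ∧ ∀ g : S, orderOf g ≠ 8

def NSThm : Prop := ∀ (G : Type u) [Group G] [Finite G], Ord8 G → ∀ L Q : Subgroup G, Lc0 L Q →
  IH.{u} (Nat.card L) → TyA L Q ∨ TyS L Q ∨ ∃ p, TyD p L Q

def FinThm : Prop := (∀ c, IH.{u} c) → ∀ (G : Type u) [Group G] [Finite G], Ord8 G →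
  (∃ x : G, orderOf x = 5) → (∃ x : G, orderOf x = 7) → (∃ x : G, orderOf x = 8) →
  ∃ N : Subgroup G, N.Normal ∧ N.index = 2 ∧ IsL3 N 4

/-! ### The known groups -/

def LS1Thm : Prop := ∀ (G : Type u) [Group G] [Finite G], Ord8 G →
  (∀ q, ¬ Group.IsSolvable G → IsL2 G q → Small G) ∧ (∀ m, 1 ≤ m → ¬ IsSz G m) ∧ (∀ n, 2 ≤ n → ¬ IsU3 G (2 ^ n)) ∧
  (∀ n, 2 ≤ n → IsL3 G (2 ^ n) → Small G) ∧
  ∀ (F : Type) [Field F] [Fintype F] (n : ℕ), 2 ≤ n → Fintype.card F = 2 ^ n → ¬ Nonempty (G ≃* PSp 2 F)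

def LS2Thm : Prop := ∀ (G : Type u) [Group G] [Finite G], Ord8 G →
  ¬ IsL3 G 3 ∧ ¬ IsU3 G 3 ∧ (∀ n, 8 ≤ n → ¬ Nonempty (G ≃* alternatingGroup (Fin n))) ∧
  ¬ Spor.IsoM11 G ∧ ¬ Spor.IsoM22 G ∧ ¬ Spor.IsoM23 G ∧ ¬ Spor.IsoJ3 G ∧
  (∀ (F : Type) [Field F] [Fintype F], Fintype.card F = 9 → ¬ Nonempty (G ≃* PSU 4 F 3)) ∧
  ∀ (F : Type) [Field F] [Fintype F], Fintype.card F = 3 →
    ¬ Nonempty (G ≃* Matrix.ProjectiveSpecialLinearGroup (Fin 4) F) ∧ ¬ Nonempty (G ≃* PSp 2 F) ∧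
      ¬ Nonempty (G ≃* ↥(Lie.chevG2.group F))

end CL.O8
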