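/-
Project O8 (S3432): the known groups with an element of order at least nine.
-/
import Cfsg.Agent.O8.A
import Cfsg.Agent.Cls.SLnCard
import Cfsg.Agent.Known.MathieuIso
import Cfsg.Agent.S1059
import Cfsg.Agent.Spor.J23One
import Cfsg.Agent.Spor.StdU33
import Cfsg.Agent.Spor.StdU43
import Cfsg.Agent.Spor.StdPS43

set_option autoImplicit false
set_option linter.unusedVariables false

open Cfsg Subgroup CL.Grp CL.Even CL.Loc CL.NGrp
open scoped commutatorElement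

namespace CL.O8

universe u

namespace LS2

variable {G : Type*} [Group G]

theorem pows (h : Ord8 G) [Finite G] (g : G) : g ^ 5 = 1 ∨ g ^ 6 = 1 ∨ g ^ 7 = 1 ∨ g ^ 8 = 1 := by
  have h1 := h g
  have h2 := orderOf_pos g
  simp only [← orderOf_dvd_iff_pow_eq_one]
  interval_cases orderOf g <;> decide

theorem of_card [Finite G] (h : Ord8 G) {H : Type*} [Group H] (e : G ≃* H) {p : ℕ} (hp : p.Prime) (h8 : 8 ≤ p)
    (hd : p ∣ Nat.card H) : False :=
  h.not_dvd hp h8 (Nat.card_congr e.toEquiv ▸ hd)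

open CL.PG in
theorem of_word {P : PG.Par} {X Γ : Type*} [Group Γ] [MulAction Γ X] {e : ℕ → X} {gs : List Γ} {ns : List Net}
    {D : List (ℕ × List ℕ)} {chk : List (List ℕ × List ℕ) → Bool} (c : Ctx P e gs ns D chk) {l : List (List ℕ)}
    {w : List ℕ} (hw : wordG gs w ∈ subW gs l) {i : ℕ}
    (hc : bnd (bnd (movB P.n P.N ns (powW w 5) i) (movB P.n P.N ns (powW w 6) i))
      (bnd (movB P.n P.N ns (powW w 7) i) (movB P.n P.N ns (powW w 8) i)) = true)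
    [Finite G] (h : Ord8 G) {H : Type*} [Group H] (f : G ≃* H) (k : Nonempty (subW gs l ≃* H)) : False := by
  obtain ⟨k⟩ := k
  have key : ∀ m, movB P.n P.N ns (powW w m) i = true → (f.symm (k ⟨_, hw⟩)) ^ m ≠ 1 := fun m hm e1 => by
    rw [← map_pow, ← map_pow, map_eq_one_iff _ f.symm.injective, map_eq_one_iff _ k.injective] at e1
    exact c.ne_one hm ((wordG_powW gs w m).trans (congrArg Subtype.val e1))
  obtain ⟨h1, h2⟩ := bnd_iff.1 hc
  rcases pows h (f.symm (k ⟨_, hw⟩)) with a | a | a | a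
  exacts [key _ (bnd_iff.1 h1).1 a, key _ (bnd_iff.1 h1).2 a, key _ (bnd_iff.1 h2).1 a, key _ (bnd_iff.1 h2).2 a]

/-- an element of order 15 -/
def c15 : Equiv.Perm (Fin 8) :=
  ⟨![1, 2, 0, 4, 5, 6, 7, 3], ![2, 0, 1, 7, 3, 4, 5, 6], by decide, by decide⟩

theorem c15_pow : (c15 ^ 2) ^ 5 ≠ 1 ∧ (c15 ^ 2) ^ 6 ≠ 1 ∧ (c15 ^ 2) ^ 7 ≠ 1 ∧ (c15 ^ 2) ^ 8 ≠ 1 := by
  decide +kernel

theorem alt [Finite G] (h : Ord8 G) {n : ℕ} (hn : 8 ≤ n) (e : G ≃* alternatingGroup (Fin n)) : False := by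
  let φ := Equiv.Perm.viaEmbeddingHom (Fin.castLEEmb hn)
  have hφ : Function.Injective φ := Equiv.Perm.viaEmbeddingHom_injective _
  have hm : φ (c15 ^ 2) ∈ alternatingGroup (Fin n) := by
    rw [Equiv.Perm.mem_alternatingGroup, map_pow, map_pow, Int.units_sq]
  have key : ∀ m, (c15 ^ 2) ^ m ≠ 1 → (e.symm ⟨_, hm⟩) ^ m ≠ 1 := fun m h1 e1 => by
    rw [← map_pow, map_eq_one_iff _ e.symm.injective] at e1
    exact h1 (hφ ((map_pow φ _ m).trans ((congrArg Subtype.val e1).trans φ.map_one.symm)))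
  obtain ⟨h5, h6, h7, h8⟩ := c15_pow
  rcases pows h (e.symm ⟨_, hm⟩) with a | a | a | a
  exacts [key _ h5 a, key _ h6 a, key _ h7 a, key _ h8 a]

theorem psl {F : Type} [Field F] [Fintype F] (hF : Fintype.card F = 3) :
    13 ∣ Nat.card (Matrix.ProjectiveSpecialLinearGroup (Fin 3) F) ∧
      13 ∣ Nat.card (Matrix.ProjectiveSpecialLinearGroup (Fin 4) F) := by
  have a1 := CL.SLn.card_PSL_mul (ι := Fin 3) (F := F)
  have a2 := CL.SLn.card_SL (ι := Fin 3) (F := F)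
  have b1 := CL.SLn.card_PSL_mul (ι := Fin 4) (F := F)
  have b2 := CL.SLn.card_SL (ι := Fin 4) (F := F)
  rw [Fintype.card_fin, hF] at a1 a2 b1 b2
  rw [a2] at a1
  rw [b2] at b1
  norm_num [Finset.prod_range_succ] at a1 b1
  omega

theorem j3 {F : Type} [Field F] [Fintype F] (hF : Fintype.card F = 4) (ω : F) (hω : ω ^ 2 + ω + 1 = 0) :
    Nat.card (Spor.J3 F ω) = 50232960 := by
  let D : CL.Mx.F4 F := ⟨ω, hω, by rw [Nat.card_eq_fintype_card, hF]⟩
  obtain ⟨j, M⟩ : ∃ j : ℕ → Spor.threeJ3 F ω, CL.J23.Mod3 j := by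
    rw [show Spor.threeJ3 F ω = _ from CL.Mx.J3.threeJ3_eq D]
    exact CL.J23.exists_mod3 (CL.Mx.J3.faith9 D) (CL.Mx.J3.a_top D CL.Mx.J3.σ9)
  exact M.cardq

end LS2

open LS2 CL.PG in
theorem ls2Thm : LS2Thm.{u} := by
  intro G _ _ h
  have p11 : Nat.Prime 11 := by norm_num
  have p13 : Nat.Prime 13 := by norm_num
  refine ⟨fun ⟨F, _, _, hF, ⟨e⟩⟩ => of_card h e p13 (by norm_num) (psl hF).1, fun ⟨F, _, _, hF, ⟨e⟩⟩ => ?_,
    fun n hn ⟨e⟩ => alt h hn e, fun ⟨e⟩ => of_card h e p11 (by norm_num) (CL.Spor.card_M11 ▸ by norm_num),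
    fun ⟨e⟩ => of_card h e p11 (by norm_num) (CL.Spor.card_M22 ▸ by norm_num),
    fun ⟨e⟩ => of_card h e p11 (by norm_num) (CL.Spor.card_M23 ▸ by norm_num),
    fun ⟨F, _, _, ω, hF, hω, ⟨e⟩⟩ => of_card h e (p := 17) (by norm_num) (by norm_num) (j3 hF ω hω ▸ by norm_num),
    fun F _ _ hF ⟨e⟩ => ?_, fun F _ _ hF => ⟨fun ⟨e⟩ => of_card h e p13 (by norm_num) (psl hF).2, fun ⟨e⟩ => ?_,
      fun ⟨e⟩ => of_card h e p13 (by norm_num) (Cfsg.Agent.S1059.result hF ▸ by norm_num)⟩⟩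
  · refine of_word CL.Std.U33.c1 (w := [0, 0, 2, 2]) ?_ (i := 0) (by decide +kernel) h e (CL.Std.U33.iso hF)
    have a := mem_subW (gs := CL.Std.U33.gs1) (l := [[0], [2]]) (w := [0]) (by simp)
    have b := mem_subW (gs := CL.Std.U33.gs1) (l := [[0], [2]]) (w := [2]) (by simp)
    rw [wordG_single] at a b
    simp only [wordG_cons, wordG_nil]
    exact mul_mem a (mul_mem a (mul_mem b (mul_mem b (one_mem _))))
  · exact of_word CL.Std.U43.c1 (w := [0]) (mem_subW (by simp)) (i := 0) (by decide +kernel) h e (CL.Std.U43.iso hF)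
  · exact of_word CL.Std.PS43.c1 (w := [0]) (mem_subW (by simp)) (i := 0) (by decide +kernel) h e
      (CL.Std.PS43.iso hF)

end CL.O8
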